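import Cfsg.Agent.Lib.Helper11.DicksonPair

set_option autoImplicit false
set_option linter.unusedSectionVars false

namespace Cfsg.Agent.Lib.Helper11.Dickson

open Matrix

variable {L : Type*} [Field L]

theorem tau8_of_y5 (h3 : (3 : L) = 0) (τ : L)
    (h : 5 + 20 * τ + 21 * τ ^ 2 + 8 * τ ^ 3 + τ ^ 4 = 0) : τ ^ 8 = 1 := by
  linear_combination (820 - 196 * τ + 43 * τ ^ 2 - 8 * τ ^ 3 + τ ^ 4) * h +
    (-1367 - 5140 * τ - 4505 * τ ^ 2 - 1088 * τ ^ 3) * h3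

theorem tau8_of_y6 (h3 : (3 : L) = 0) (τ : L) (hτ : τ ≠ 0)
    (h : 6 + 35 * τ + 56 * τ ^ 2 + 36 * τ ^ 3 + 10 * τ ^ 4 + τ ^ 5 = 0) : τ ^ 8 = 1 := by
  have h1 : (τ + 2) ^ 3 * (τ + 1) * τ = 0 := by
    linear_combination h - (2 + 9 * τ + 12 * τ ^ 2 + 6 * τ ^ 3 + τ ^ 4) * h3
  rcases mul_eq_zero.1 h1 with h1 | h1
  · rcases mul_eq_zero.1 h1 with h1 | h1
    · have h4 : τ + 2 = 0 := by simpa using h1
      have : τ = 1 := by linear_combination h4 - h3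
      rw [this, one_pow]
    · have : τ = -1 := by linear_combination h1
      rw [this]; norm_num
  · exact absurd h1 hτ

theorem det_eq' (g : Matrix.SpecialLinearGroup (Fin 2) L) : g 0 0 * g 1 1 - g 0 1 * g 1 0 = 1 := by
  have := g.det_coe
  rwa [Matrix.det_fin_two] at this

theorem pow_entries_aux (τ : L) (h : Matrix.SpecialLinearGroup (Fin 2) L) (h00 : h 0 0 = 1 + τ)
    (h01 : h 0 1 = 1) (h10 : h 1 0 = τ) (h11 : h 1 1 = 1) :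
    (h ^ 5) 0 1 = 5 + 20 * τ + 21 * τ ^ 2 + 8 * τ ^ 3 + τ ^ 4 ∧
    (h ^ 6) 0 1 = 6 + 35 * τ + 56 * τ ^ 2 + 36 * τ ^ 3 + 10 * τ ^ 4 + τ ^ 5 := by
  have step : ∀ n : ℕ, (h ^ (n + 1)) 0 0 = (h ^ n) 0 0 * (1 + τ) + (h ^ n) 0 1 * τ ∧
      (h ^ (n + 1)) 0 1 = (h ^ n) 0 0 + (h ^ n) 0 1 := by
    intro n
    rw [pow_succ, mul_apply', mul_apply', h00, h01, h10, h11]
    exact ⟨rfl, by ring⟩
  have p1 : (h ^ 1) 0 0 = 1 + τ ∧ (h ^ 1) 0 1 = 1 := by rw [pow_one]; exact ⟨h00, h01⟩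
  have p2 : (h ^ 2) 0 0 = 1 + 3 * τ + τ ^ 2 ∧ (h ^ 2) 0 1 = 2 + τ := by
    rw [(step 1).1, (step 1).2, p1.1, p1.2]; constructor <;> ring
  have p3 : (h ^ 3) 0 0 = 1 + 6 * τ + 5 * τ ^ 2 + τ ^ 3 ∧ (h ^ 3) 0 1 = 3 + 4 * τ + τ ^ 2 := by
    rw [(step 2).1, (step 2).2, p2.1, p2.2]; constructor <;> ring
  have p4 : (h ^ 4) 0 0 = 1 + 10 * τ + 15 * τ ^ 2 + 7 * τ ^ 3 + τ ^ 4 ∧
      (h ^ 4) 0 1 = 4 + 10 * τ + 6 * τ ^ 2 + τ ^ 3 := by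
    rw [(step 3).1, (step 3).2, p3.1, p3.2]; constructor <;> ring
  have p5 : (h ^ 5) 0 0 = 1 + 15 * τ + 35 * τ ^ 2 + 28 * τ ^ 3 + 9 * τ ^ 4 + τ ^ 5 ∧
      (h ^ 5) 0 1 = 5 + 20 * τ + 21 * τ ^ 2 + 8 * τ ^ 3 + τ ^ 4 := by
    rw [(step 4).1, (step 4).2, p4.1, p4.2]; constructor <;> ring
  refine ⟨p5.2, ?_⟩
  rw [(step 5).2, p5.1, p5.2]; ring

theorem pow_entries (τ : L) :
    ((uMat 1 * lMat τ : Matrix.SpecialLinearGroup (Fin 2) L) ^ 5 :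
      Matrix.SpecialLinearGroup (Fin 2) L) 0 1 = 5 + 20 * τ + 21 * τ ^ 2 + 8 * τ ^ 3 + τ ^ 4 ∧
    ((uMat 1 * lMat τ : Matrix.SpecialLinearGroup (Fin 2) L) ^ 6 :
      Matrix.SpecialLinearGroup (Fin 2) L) 0 1 =
      6 + 35 * τ + 56 * τ ^ 2 + 36 * τ ^ 3 + 10 * τ ^ 4 + τ ^ 5 := by
  obtain ⟨u00, u01, u10, u11⟩ := uMat_apply (1 : L)
  obtain ⟨l00, l01, l10, l11⟩ := lMat_apply τ
  apply pow_entries_aux
  · rw [mul_apply', u00, u01, l00, l10]; ring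
  · rw [mul_apply', u00, u01, l01, l11]; ring
  · rw [mul_apply', u10, u11, l00, l10]; ring
  · rw [mul_apply', u10, u11, l01, l11]; ring

theorem inv_apply' (g : Matrix.SpecialLinearGroup (Fin 2) L) :
    (g⁻¹) 0 0 = g 1 1 ∧ (g⁻¹) 0 1 = - g 0 1 ∧ (g⁻¹) 1 0 = - g 1 0 ∧ (g⁻¹) 1 1 = g 0 0 := by
  rw [Matrix.SpecialLinearGroup.coe_inv, Matrix.adjugate_fin_two]
  refine ⟨?_, ?_, ?_, ?_⟩ <;> simp

/-- conjugates of `u(1)`. -/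
theorem conj_u (w : Matrix.SpecialLinearGroup (Fin 2) L) :
    (w * uMat 1 * w⁻¹ : Matrix.SpecialLinearGroup (Fin 2) L) 1 0 = - (w 1 0) ^ 2 ∧
      (w * uMat 1 * w⁻¹ : Matrix.SpecialLinearGroup (Fin 2) L) 0 0 +
        (w * uMat 1 * w⁻¹ : Matrix.SpecialLinearGroup (Fin 2) L) 1 1 = 2 := by
  obtain ⟨u00, u01, u10, u11⟩ := uMat_apply (1 : L)
  obtain ⟨i00, i01, i10, i11⟩ := inv_apply' w
  have hdet := det_eq' w
  simp only [mul_apply', u00, u01, u10, u11, i00, i01, i10, i11]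
  constructor
  · ring
  · linear_combination 2 * hdet

theorem conj_to_lMat (x : Matrix.SpecialLinearGroup (Fin 2) L) (htr : x 0 0 + x 1 1 = 2)
    (hc : x 1 0 ≠ 0) :
    uMat ((1 - x 0 0) / x 1 0) * x * (uMat ((1 - x 0 0) / x 1 0))⁻¹ = lMat (x 1 0) := by
  obtain ⟨u00, u01, u10, u11⟩ := uMat_apply ((1 - x 0 0) / x 1 0)
  obtain ⟨i00, i01, i10, i11⟩ := inv_apply' (uMat ((1 - x 0 0) / x 1 0))
  obtain ⟨l00, l01, l10, l11⟩ := lMat_apply (x 1 0)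
  have hdet := det_eq' x
  have h11 : x 1 1 = 2 - x 0 0 := by linear_combination htr
  ext i j
  fin_cases i <;> fin_cases j <;>
    simp only [Fin.zero_eta, Fin.mk_one, Fin.isValue, mul_apply', u00, u01, u10, u11, i00, i01, i10, i11, l00, l01, l10, l11]
  · field_simp; ring
  · rw [h11] at hdet ⊢
    field_simp
    linear_combination -hdet
  · ring
  · rw [h11]; field_simp; ring

/-- the exceptional case -/
theorem exc_case (h3 : (3 : L) = 0) (H : Subgroup (Matrix.SpecialLinearGroup (Fin 2) L))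
    (hu : uMat 1 ∈ H) (τ : L) (hτ : τ ≠ 0) (hl : lMat τ ∈ H)
    (h65 : ∀ h ∈ H, (h ^ 6) 0 1 = 0 ∨ (h ^ 5) 0 1 = 0) :
    ∃ x ∈ H, x 0 0 + x 1 1 = 2 ∧ x 1 0 = -1 := by
  have h8 : τ ^ 8 = 1 := by
    rcases h65 _ (H.mul_mem hu hl) with h | h
    · rw [(pow_entries τ).2] at h; exact tau8_of_y6 h3 τ hτ h
    · rw [(pow_entries τ).1] at h; exact tau8_of_y5 h3 τ h
  set s₁ := lMat τ * uMat 1 * (lMat τ)⁻¹ with hs₁
  set s₂ := s₁ * uMat 1 * s₁⁻¹ with hs₂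
  set s₃ := s₂ * uMat 1 * s₂⁻¹ with hs₃
  have m₁ : s₁ ∈ H := H.mul_mem (H.mul_mem hl hu) (H.inv_mem hl)
  have m₂ : s₂ ∈ H := H.mul_mem (H.mul_mem m₁ hu) (H.inv_mem m₁)
  have m₃ : s₃ ∈ H := H.mul_mem (H.mul_mem m₂ hu) (H.inv_mem m₂)
  refine ⟨s₃, m₃, (conj_u s₂).2, ?_⟩
  rw [hs₃, (conj_u s₂).1, hs₂, (conj_u s₁).1, hs₁, (conj_u (lMat τ)).1, (lMat_apply τ).2.2.1]
  linear_combination -h8

end Cfsg.Agent.Lib.Helper11.Dickson
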