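import Cfsg.Agent.Lib.Helper11.SL2Lemmas

set_option autoImplicit false

namespace Cfsg.Agent.Lib.Helper11.Dickson

open Matrix OnePoint

variable {L : Type*} [Field L] [DecidableEq L]

/-- the Möbius action of `SL₂(L)` on the projective line, as a permutation representation. -/
noncomputable def rho : Matrix.SpecialLinearGroup (Fin 2) L →* Equiv.Perm (OnePoint L) :=
  (MulAction.toPermHom (GL (Fin 2) L) (OnePoint L)).comp Matrix.SpecialLinearGroup.toGL

theorem rho_infty (g : Matrix.SpecialLinearGroup (Fin 2) L) :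
    rho g ∞ = if g 1 0 = 0 then ∞ else ((g 0 0 / g 1 0 : L) : OnePoint L) :=
  smul_infty_eq_ite _

theorem rho_coe (g : Matrix.SpecialLinearGroup (Fin 2) L) (k : L) :
    rho g (k : OnePoint L) = if g 1 0 * k + g 1 1 = 0 then ∞ else
      (((g 0 0 * k + g 0 1) / (g 1 0 * k + g 1 1) : L) : OnePoint L) :=
  smul_some_eq_ite

theorem det_eq (g : Matrix.SpecialLinearGroup (Fin 2) L) : g 0 0 * g 1 1 - g 0 1 * g 1 0 = 1 := by
  have := g.det_coe
  rwa [Matrix.det_fin_two] at this

theorem rho_infty_iff (g : Matrix.SpecialLinearGroup (Fin 2) L) : rho g ∞ = ∞ ↔ g 1 0 = 0 := by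
  rw [rho_infty]
  split_ifs with h
  · simp [h]
  · simp [h]

theorem rho_coe_iff (g : Matrix.SpecialLinearGroup (Fin 2) L) (k : L) :
    rho g (k : OnePoint L) = k ↔ g 1 0 * (k * k) + (g 1 1 - g 0 0) * k + (- g 0 1) = 0 := by
  have hdet := det_eq g
  rw [rho_coe]
  split_ifs with h
  · constructor
    · intro h'; exact absurd h' (infty_ne_coe _)
    · intro h'
      exfalso
      have h1 : g 0 0 * k + g 0 1 = 0 := by linear_combination k * h - h'
      have : (1 : L) = 0 := by
        rw [← hdet]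
        linear_combination (g 0 0) * h - (g 1 0) * h1
      exact one_ne_zero this
  · rw [coe_eq_coe, div_eq_iff h]
    constructor
    · intro h'; linear_combination -h'
    · intro h'; linear_combination -h'

/-- the set of fixed points -/
def Fix (g : Matrix.SpecialLinearGroup (Fin 2) L) : Set (OnePoint L) := {x | rho g x = x}

theorem mem_Fix {g : Matrix.SpecialLinearGroup (Fin 2) L} {x : OnePoint L} :
    x ∈ Fix g ↔ rho g x = x := Iff.rfl

theorem eq_one_or_neg_one (g : Matrix.SpecialLinearGroup (Fin 2) L) (h10 : g 1 0 = 0)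
    (h01 : g 0 1 = 0) (hd : g 0 0 = g 1 1) : g = 1 ∨ g = -1 := by
  have hdet := det_eq g
  rw [h10, h01, ← hd] at hdet
  have h1 : (g 0 0 - 1) * (g 0 0 + 1) = 0 := by linear_combination hdet
  rcases mul_eq_zero.1 h1 with h | h
  · left
    have h00 : g 0 0 = 1 := by linear_combination h
    ext i j
    fin_cases i <;> fin_cases j <;> simp [h10, h01, h00, ← hd]
  · right
    have h00 : g 0 0 = -1 := by linear_combination h
    ext i j
    fin_cases i <;> fin_cases j <;> simp [h10, h01, h00, ← hd]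

theorem rho_neg_one : rho (-1 : Matrix.SpecialLinearGroup (Fin 2) L) = 1 := by
  ext x
  cases x with
  | infty => simp [rho_infty]
  | coe k => simp [rho_coe]

theorem eq_of_rho_eq_one (g : Matrix.SpecialLinearGroup (Fin 2) L) (h : rho g = 1) :
    g = 1 ∨ g = -1 := by
  have h1 : g 1 0 = 0 := (rho_infty_iff g).1 (by rw [h]; rfl)
  have h2 := (rho_coe_iff g 0).1 (by rw [h]; rfl)
  have h3 := (rho_coe_iff g 1).1 (by rw [h]; rfl)
  have h01 : g 0 1 = 0 := by linear_combination -h2
  apply eq_one_or_neg_one g h1 h01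
  rw [h1, h01] at h3
  linear_combination -h3

theorem eq_or_eq_neg_of_rho_eq (g g' : Matrix.SpecialLinearGroup (Fin 2) L) (h : rho g = rho g') :
    g = g' ∨ g = -g' := by
  have h1 : rho (g * g'⁻¹) = 1 := by rw [map_mul, map_inv, h, mul_inv_cancel]
  rcases eq_of_rho_eq_one _ h1 with h2 | h2
  · left; exact mul_inv_eq_one.1 h2
  · right
    have : g = (g * g'⁻¹) * g' := by group
    rw [this, h2]; simp

theorem Fix_upper (g : Matrix.SpecialLinearGroup (Fin 2) L) (h10 : g 1 0 = 0)
    (hd : g 0 0 = g 1 1) (h01 : g 0 1 ≠ 0) : Fix g = {∞} := by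
  ext x
  rw [mem_Fix, Set.mem_singleton_iff]
  cases x with
  | infty => simp [rho_infty_iff, h10]
  | coe k =>
    rw [rho_coe_iff, h10, hd]
    simp [h01]

theorem Fix_lower (g : Matrix.SpecialLinearGroup (Fin 2) L) (h01 : g 0 1 = 0)
    (hd : g 0 0 = g 1 1) (h10 : g 1 0 ≠ 0) : Fix g = {((0 : L) : OnePoint L)} := by
  ext x
  rw [mem_Fix, Set.mem_singleton_iff]
  cases x with
  | infty => simp [rho_infty_iff, h10]
  | coe k =>
    rw [rho_coe_iff, h01, hd, coe_eq_coe]
    simp [h10]

theorem upper_case (g : Matrix.SpecialLinearGroup (Fin 2) L) (h10 : g 1 0 = 0)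
    (hd : g 0 0 = g 1 1) : rho g = 1 ∨ Fix g = {∞} := by
  by_cases h01 : g 0 1 = 0
  · left
    rcases eq_one_or_neg_one g h10 h01 hd with h | h
    · rw [h, map_one]
    · rw [h, rho_neg_one]
  · right; exact Fix_upper g h10 hd h01

theorem of_Fix_eq_infty (g : Matrix.SpecialLinearGroup (Fin 2) L) (h : Fix g = {∞}) :
    g 1 0 = 0 ∧ g 0 0 = g 1 1 := by
  have h10 : g 1 0 = 0 := by
    rw [← rho_infty_iff, ← mem_Fix, h]; rfl
  refine ⟨h10, ?_⟩
  by_contra hd
  have hd' : g 1 1 - g 0 0 ≠ 0 := fun hh => hd (by linear_combination -hh)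
  have : ((g 0 1 / (g 1 1 - g 0 0) : L) : OnePoint L) ∈ Fix g := by
    rw [mem_Fix, rho_coe_iff, h10]
    field_simp
    ring
  rw [h] at this
  exact coe_ne_infty _ this

theorem of_Fix_eq_zero (g : Matrix.SpecialLinearGroup (Fin 2) L)
    (h : Fix g = {((0 : L) : OnePoint L)}) : g 0 1 = 0 ∧ g 0 0 = g 1 1 ∧ g 1 0 ≠ 0 := by
  have h01 : g 0 1 = 0 := by
    have : ((0 : L) : OnePoint L) ∈ Fix g := by rw [h]; rfl
    rw [mem_Fix, rho_coe_iff] at this
    linear_combination -this
  have h10 : g 1 0 ≠ 0 := by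
    intro h10
    have : (∞ : OnePoint L) ∈ Fix g := by rw [mem_Fix, rho_infty_iff]; exact h10
    rw [h] at this
    exact infty_ne_coe _ this
  refine ⟨h01, ?_, h10⟩
  have : (((g 0 0 - g 1 1) / g 1 0 : L) : OnePoint L) ∈ Fix g := by
    rw [mem_Fix, rho_coe_iff, h01]
    field_simp
    ring
  rw [h, Set.mem_singleton_iff, coe_eq_coe, div_eq_zero_iff] at this
  rcases this with h' | h'
  · linear_combination h'
  · exact absurd h' h10

theorem ncard_Fix [IsAlgClosed L] (h2 : (2 : L) ≠ 0) (g : Matrix.SpecialLinearGroup (Fin 2) L)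
    (hg : rho g ≠ 1) : (Fix g).ncard = 1 ∨ (Fix g).ncard = 2 := by
  have hdet := det_eq g
  haveI : NeZero (2 : L) := ⟨h2⟩
  by_cases hc : g 1 0 = 0
  · by_cases hd : g 0 0 = g 1 1
    · left
      rcases upper_case g hc hd with h | h
      · exact absurd h hg
      · rw [h]; simp
    · right
      have hd' : g 1 1 - g 0 0 ≠ 0 := fun hh => hd (by linear_combination -hh)
      have : Fix g = {∞, ((g 0 1 / (g 1 1 - g 0 0) : L) : OnePoint L)} := by
        ext x
        rw [mem_Fix, Set.mem_insert_iff, Set.mem_singleton_iff]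
        cases x with
        | infty => simp [rho_infty_iff, hc]
        | coe k =>
          rw [rho_coe_iff, hc, coe_eq_coe, eq_div_iff hd']
          simp only [coe_ne_infty, false_or]
          constructor
          · intro h; linear_combination h
          · intro h; linear_combination h
      rw [this]
      exact Set.ncard_pair (infty_ne_coe _)
  · obtain ⟨δ, hδ⟩ := IsAlgClosed.exists_pow_nat_eq
      (discrim (g 1 0) (g 1 1 - g 0 0) (- g 0 1)) (n := 2) (by norm_num)
    have hδ' : discrim (g 1 0) (g 1 1 - g 0 0) (- g 0 1) = δ * δ := by rw [← hδ]; ring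
    have : Fix g = {(((-(g 1 1 - g 0 0) + δ) / (2 * g 1 0) : L) : OnePoint L),
        (((-(g 1 1 - g 0 0) - δ) / (2 * g 1 0) : L) : OnePoint L)} := by
      ext x
      rw [mem_Fix, Set.mem_insert_iff, Set.mem_singleton_iff]
      cases x with
      | infty => simp [rho_infty_iff, hc]
      | coe k =>
        rw [rho_coe_iff, coe_eq_coe, coe_eq_coe]
        exact quadratic_eq_zero_iff hc hδ' k
    rw [this]
    by_cases he : (((-(g 1 1 - g 0 0) + δ) / (2 * g 1 0) : L) : OnePoint L) =
        (((-(g 1 1 - g 0 0) - δ) / (2 * g 1 0) : L) : OnePoint L)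
    · left; rw [he]; simp
    · right; exact Set.ncard_pair he

end Cfsg.Agent.Lib.Helper11.Dickson
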