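import Cfsg.Agent.Lib.Helper11.DicksonExc

set_option autoImplicit false
set_option linter.unusedSectionVars false

namespace Cfsg.Agent.Lib.Helper11.Dickson

open Matrix

variable {K : Type*} [Field K]

theorem decomp (g : Matrix.SpecialLinearGroup (Fin 2) K) (hc : g 1 0 ≠ 0) :
    g = uMat ((g 0 0 - 1) / g 1 0) * lMat (g 1 0) * uMat ((g 1 1 - 1) / g 1 0) := by
  obtain ⟨u00, u01, u10, u11⟩ := uMat_apply ((g 0 0 - 1) / g 1 0)
  obtain ⟨v00, v01, v10, v11⟩ := uMat_apply ((g 1 1 - 1) / g 1 0)
  obtain ⟨l00, l01, l10, l11⟩ := lMat_apply (g 1 0)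
  have hdet := det_eq' g
  ext i j
  fin_cases i <;> fin_cases j <;>
    simp only [Fin.zero_eta, Fin.mk_one, Fin.isValue, mul_apply', u00, u01, u10, u11, v00, v01, v10, v11, l00, l01, l10, l11]
  · field_simp; ring
  · field_simp
    linear_combination -hdet
  · ring
  · field_simp; ring

theorem mem_of_uMat_lMat (S : Subgroup (Matrix.SpecialLinearGroup (Fin 2) K))
    (hU : ∀ a : K, uMat a ∈ S) (hL : ∀ a : K, lMat a ∈ S)
    (g : Matrix.SpecialLinearGroup (Fin 2) K) : g ∈ S := by
  have key : ∀ g : Matrix.SpecialLinearGroup (Fin 2) K, g 1 0 ≠ 0 → g ∈ S := by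
    intro g hc
    rw [decomp g hc]
    exact S.mul_mem (S.mul_mem (hU _) (hL _)) (hU _)
  by_cases hc : g 1 0 = 0
  · have h00 : g 0 0 ≠ 0 := by
      intro h
      have hdet := det_eq' g
      rw [h, hc] at hdet
      simp at hdet
    have h1 : lMat 1 * g ∈ S := by
      apply key
      obtain ⟨l00, l01, l10, l11⟩ := lMat_apply (1 : K)
      rw [mul_apply', l10, l11, hc]
      simpa using h00
    have : g = (lMat 1)⁻¹ * (lMat 1 * g) := by group
    rw [this]
    exact S.mul_mem (S.inv_mem (hL 1)) h1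
  · exact key g hc

theorem closure_eq_top (p : ℕ) [Fact p.Prime] (c : ZMod p) (hc : c ≠ 0) :
    Subgroup.closure {uMat (1 : ZMod p), lMat c} = ⊤ := by
  rw [eq_top_iff]
  intro g _
  apply mem_of_uMat_lMat
  · intro a
    have : uMat a = uMat (1 : ZMod p) ^ a.val := by
      rw [uMat_pow, ZMod.natCast_zmod_val, mul_one]
    rw [this]
    exact Subgroup.pow_mem _ (Subgroup.subset_closure (by simp)) _
  · intro a
    have : lMat a = lMat c ^ (a / c).val := by
      rw [lMat_pow, ZMod.natCast_zmod_val, div_mul_cancel₀ _ hc]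
    rw [this]
    exact Subgroup.pow_mem _ (Subgroup.subset_closure (by simp)) _

variable {L : Type*} [Field L]

theorem map_uMat (f : K →+* L) (a : K) : Matrix.SpecialLinearGroup.map f (uMat a) = uMat (f a) := by
  ext i j
  fin_cases i <;> fin_cases j <;> simp [Matrix.SpecialLinearGroup.map_apply_coe, coe_uMat]

theorem map_lMat (f : K →+* L) (a : K) : Matrix.SpecialLinearGroup.map f (lMat a) = lMat (f a) := by
  ext i j
  fin_cases i <;> fin_cases j <;> simp [Matrix.SpecialLinearGroup.map_apply_coe, coe_lMat]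

theorem map_inj (f : K →+* L) : Function.Injective (Matrix.SpecialLinearGroup.map (n := Fin 2) f) := by
  intro g h hgh
  ext i j
  have := congrArg (fun x : Matrix.SpecialLinearGroup (Fin 2) L => x i j) hgh
  simp only [Matrix.SpecialLinearGroup.map_apply_coe, RingHom.mapMatrix_apply, Matrix.map_apply] at this
  exact f.injective this

theorem map_entry (f : K →+* L) (g : Matrix.SpecialLinearGroup (Fin 2) K) (i j : Fin 2) :
    (Matrix.SpecialLinearGroup.map f g) i j = f (g i j) := by
  simp only [Matrix.SpecialLinearGroup.map_apply_coe, RingHom.mapMatrix_apply, Matrix.map_apply]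

theorem exists_sl2p (p : ℕ) [Fact p.Prime] (f : ZMod p →+* L)
    (H : Subgroup (Matrix.SpecialLinearGroup (Fin 2) L)) (hu : uMat 1 ∈ H)
    (x : Matrix.SpecialLinearGroup (Fin 2) L) (hx : x ∈ H) (htr : x 0 0 + x 1 1 = 2)
    (c : ZMod p) (hc : c ≠ 0) (hxc : x 1 0 = f c) :
    ∃ K' : Subgroup (Matrix.SpecialLinearGroup (Fin 2) L), K' ≤ H ∧
      Nonempty (K' ≃* Matrix.SpecialLinearGroup (Fin 2) (ZMod p)) := by
  have hfc : x 1 0 ≠ 0 := by
    rw [hxc]; exact (map_ne_zero f).2 hc
  refine ⟨Subgroup.closure {uMat 1, x}, ?_, ?_⟩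
  · rw [Subgroup.closure_le]
    intro y hy
    rcases hy with rfl | rfl
    · exact hu
    · exact hx
  · set w := uMat ((1 - x 0 0) / x 1 0) with hw
    set j := Matrix.SpecialLinearGroup.map (n := Fin 2) f with hj
    have h1 : (Subgroup.closure {uMat 1, x}).map (MulAut.conj w).toMonoidHom = j.range := by
      rw [MonoidHom.map_closure, Set.image_pair, MonoidHom.range_eq_map, ← closure_eq_top p c hc,
        MonoidHom.map_closure, Set.image_pair]
      congr 2
      · simp only [MulEquiv.coe_toMonoidHom, MulAut.conj_apply]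
        rw [hj, map_uMat, map_one, hw, uMat_mul, add_comm, ← uMat_mul, mul_inv_cancel_right]
      · simp only [MulEquiv.coe_toMonoidHom, MulAut.conj_apply]
        rw [hj, map_lMat, ← hxc, hw, conj_to_lMat x htr hfc]
    exact ⟨((Subgroup.closure {uMat 1, x}).equivMapOfInjective _ (MulAut.conj w).injective).trans
      ((MulEquiv.subgroupCongr h1).trans (MonoidHom.ofInjective (map_inj f)).symm)⟩

end Cfsg.Agent.Lib.Helper11.Dickson
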