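import Cfsg.Agent.Lib.Helper11.KleinCount

set_option autoImplicit false
set_option linter.unusedSectionVars false

namespace Cfsg.Agent.Lib.Helper11.Klein

open MulAction

variable {G : Type*} [Group G] [Fintype G] {X : Type*} [MulAction G X]

/-- the subgroup of "parabolic" elements with centre `x₀`. -/
def parab (x₀ : X) (hmul : ∀ g g' : G, fixedBy X g = {x₀} → fixedBy X g' = {x₀} →
    g * g' = 1 ∨ fixedBy X (g * g') = {x₀}) : Subgroup G where
  carrier := {g | g = 1 ∨ fixedBy X g = {x₀}}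
  one_mem' := Or.inl rfl
  mul_mem' := by
    rintro a b (rfl | ha) (rfl | hb)
    · left; simp
    · right; simpa using hb
    · right; simpa using ha
    · exact hmul a b ha hb
  inv_mem' := by
    rintro a (rfl | ha)
    · left; simp
    · right; rw [fixedBy_inv]; exact ha

variable {x₀ : X} (hmul : ∀ g g' : G, fixedBy X g = {x₀} → fixedBy X g' = {x₀} →
    g * g' = 1 ∨ fixedBy X (g * g') = {x₀})

noncomputable instance instFintypeParab : Fintype (parab x₀ hmul) := Fintype.ofFinite _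

theorem mem_parab {g : G} : g ∈ parab x₀ hmul ↔ g = 1 ∨ fixedBy X g = {x₀} := Iff.rfl

open Classical in
theorem card_filter_parab :
    (Finset.univ.filter (fun g : G => g ∈ parab x₀ hmul)).card = Nat.card (parab x₀ hmul) := by
  rw [Nat.card_eq_fintype_card, Fintype.card_subtype]

open Classical in
theorem sum_parab : (∑ g : G, if (g = 1 ∨ fixedBy X g = {x₀}) then 1 else 0) =
    Nat.card (parab x₀ hmul) := by
  rw [← card_filter_parab, Finset.sum_boole, Nat.cast_id]
  congr 1
  ext g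
  simp only [Finset.mem_filter, Finset.mem_univ, true_and, mem_parab]

theorem smul_of_fixedBy {g : G} {x : X} (h : fixedBy X g = {x}) : g • x = x := by
  have : x ∈ fixedBy X g := by rw [h]; rfl
  exact this

theorem eq_of_fixedBy {g : G} {x y : X} (h : fixedBy X g = {x}) (hy : g • y = y) : y = x := by
  have : y ∈ fixedBy X g := hy
  rw [h] at this
  exact this

theorem parab_le_stab : parab x₀ hmul ≤ stabilizer G x₀ := by
  rintro g (rfl | hg)
  · exact one_mem _
  · exact smul_of_fixedBy hg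

theorem fixedBy_conj {g : G} {x : X} (h : fixedBy X g = {x}) (k : G) :
    fixedBy X (k * g * k⁻¹) = {k • x} := by
  rw [← smul_fixedBy, h, Set.smul_set_singleton]

theorem three_le_card {t : G} (ht : fixedBy X t = {x₀}) (ht1 : t ≠ 1) (ht2 : t * t ≠ 1) :
    3 ≤ Nat.card (parab x₀ hmul) := by
  have hmem : t ∈ parab x₀ hmul := Or.inr ht
  have h1 : orderOf t ∣ Nat.card (parab x₀ hmul) := Subgroup.orderOf_dvd_natCard _ hmem
  have h2 : orderOf t ≤ Nat.card (parab x₀ hmul) := Nat.le_of_dvd Nat.card_pos h1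
  have h3 : 0 < orderOf t := orderOf_pos t
  have h4 : orderOf t ≠ 1 := fun h => ht1 (orderOf_eq_one_iff.1 h)
  have h5 : orderOf t ≠ 2 := by
    intro h
    apply ht2
    have := pow_orderOf_eq_one t
    rw [h, pow_two] at this
    exact this
  omega

theorem sc_le {t : G} (ht : fixedBy X t = {x₀}) (ht1 : t ≠ 1)
    (hcent : ∀ g : G, g • x₀ = x₀ → g * t = t * g → g = 1 ∨ fixedBy X g = {x₀}) :
    sc G x₀ ≤ Nat.card (parab x₀ hmul) * (Nat.card (parab x₀ hmul) - 1) := by
  classical
  set r := Nat.card (parab x₀ hmul) with hr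
  set s : Finset G := Finset.univ.filter (fun g : G => g • x₀ = x₀) with hs
  have hsc : sc G x₀ = s.card := by
    unfold sc
    rw [Finset.sum_boole]; rfl
  rw [hsc]
  set f : G → G := fun g => g * t * g⁻¹ with hf
  have h1 : s.card ≤ r * (s.image f).card := by
    apply Finset.card_le_mul_card_image
    intro a ha
    obtain ⟨g₀, hg₀, rfl⟩ := Finset.mem_image.1 ha
    rw [hr, ← card_filter_parab]
    apply Finset.card_le_card_of_injOn (fun g => g₀⁻¹ * g)
    · intro g hg
      simp only [Finset.coe_filter, Set.mem_ofPred_eq, hs, Finset.mem_filter, Finset.mem_univ, true_and] at hg hg₀ ⊢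
      apply hcent
      · rw [mul_smul, hg.1, inv_smul_eq_iff, hg₀]
      · have h2 : g * t * g⁻¹ = g₀ * t * g₀⁻¹ := hg.2
        calc g₀⁻¹ * g * t = g₀⁻¹ * (g * t * g⁻¹) * g := by group
          _ = g₀⁻¹ * (g₀ * t * g₀⁻¹) * g := by rw [h2]
          _ = t * (g₀⁻¹ * g) := by group
    · intro a _ b _ hab
      exact mul_left_cancel hab
  have h2 : (s.image f).card ≤ r - 1 := by
    have hsub : s.image f ⊆ (Finset.univ.filter (fun g : G => g ∈ parab x₀ hmul)).erase 1 := by
      intro a ha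
      obtain ⟨g₀, hg₀, rfl⟩ := Finset.mem_image.1 ha
      simp only [hs, Finset.mem_filter, Finset.mem_univ, true_and] at hg₀
      rw [Finset.mem_erase]
      refine ⟨?_, ?_⟩
      · intro h
        apply ht1
        have h' : g₀ * t * g₀⁻¹ = 1 := h
        have : t = g₀⁻¹ * (g₀ * t * g₀⁻¹) * g₀ := by group
        rw [this, h']; group
      · simp only [Finset.mem_filter, Finset.mem_univ, true_and]
        right
        rw [fixedBy_conj ht, hg₀]
    have := Finset.card_le_card hsub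
    rw [Finset.card_erase_of_mem (by simp [one_mem]), card_filter_parab] at this
    exact this
  calc s.card ≤ r * (s.image f).card := h1
    _ ≤ r * (r - 1) := Nat.mul_le_mul_left _ h2

/-- the `P`-orbits on `Ω ∖ {x₀}` are regular. -/
theorem card_orb_parab {y : X} (hy : y ≠ x₀) :
    (orb (parab x₀ hmul) y).card = Nat.card (parab x₀ hmul) := by
  classical
  have h1 := card_orb_mul_sc (G := parab x₀ hmul) y
  have h2 : sc (parab x₀ hmul) y = 1 := by
    rw [sc_eq_card]
    have : stabilizer (parab x₀ hmul) y = ⊥ := by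
      rw [Subgroup.eq_bot_iff_forall]
      rintro ⟨g, hg⟩ hgy
      rcases hg with rfl | hg
      · rfl
      · exact absurd (eq_of_fixedBy hg hgy) hy
    rw [this]; simp
  rw [h2, mul_one] at h1
  rw [h1, Nat.card_eq_fintype_card]

open Classical in
theorem orb_parab_subset {y : X} (hy : y ≠ x₀) (hyo : y ∈ orb G x₀) :
    orb (parab x₀ hmul) y ⊆ (orb G x₀).erase x₀ := by
  classical
  intro z hz
  obtain ⟨⟨g, hg⟩, rfl⟩ := mem_orb.1 hz
  obtain ⟨k, rfl⟩ := mem_orb.1 hyo
  rw [Finset.mem_erase]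
  refine ⟨?_, mem_orb.2 ⟨g * k, mul_smul _ _ _⟩⟩
  intro h
  apply hy
  have h1 : g • x₀ = x₀ := parab_le_stab hmul hg
  have h2 : g • (k • x₀) = g • x₀ := by rw [h1]; exact h
  exact smul_left_cancel g h2

theorem card_dvd : Nat.card (parab x₀ hmul) ∣ (orb G x₀).card - 1 := by
  classical
  set s := (orb G x₀).erase x₀ with hs
  have hcard : s.card = (orb G x₀).card - 1 := Finset.card_erase_of_mem (self_mem_orb x₀)
  rw [← hcard, Finset.card_eq_sum_card_image (fun y => orb (parab x₀ hmul) y) s]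
  apply Finset.dvd_sum
  intro b hb
  obtain ⟨y, hy, rfl⟩ := Finset.mem_image.1 hb
  have hy' := Finset.mem_erase.1 hy
  have : s.filter (fun a => orb (parab x₀ hmul) a = orb (parab x₀ hmul) y) =
      orb (parab x₀ hmul) y := by
    ext a
    rw [Finset.mem_filter]
    constructor
    · rintro ⟨_, h⟩
      rw [← h]; exact self_mem_orb a
    · intro h
      exact ⟨orb_parab_subset hmul hy'.1 hy'.2 h, orb_eq_of_mem h⟩
  rw [this, card_orb_parab hmul hy'.1]

theorem pow_sc_eq_one {g : G} {z : X} (h : g • z = z) : g ^ (sc G z) = 1 := by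
  rw [sc_eq_card]
  exact orderOf_dvd_iff_pow_eq_one.1 (Subgroup.orderOf_dvd_natCard (stabilizer G z) h)

theorem two_le_sc {g : G} (hg : g ≠ 1) {z : X} (h : g • z = z) : 2 ≤ sc G z := by
  rw [sc_eq_card]
  have : stabilizer G z ≠ ⊥ := by
    intro hb
    apply hg
    have hm : g ∈ stabilizer G z := h
    rw [hb] at hm
    exact hm
  exact (Subgroup.one_lt_card_iff_ne_bot _).2 this

theorem sc_of_mem_orb {x z : X} (h : z ∈ orb G x) : sc G z = sc G x := by
  obtain ⟨g, rfl⟩ := mem_orb.1 h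
  exact sc_smul g x

include hmul in
theorem klein_count
    (hfix : ∀ g : G, g ≠ 1 → (fixedBy X g).ncard = 1 ∨ (fixedBy X g).ncard = 2)
    {t : G} (ht : fixedBy X t = {x₀}) (ht2 : t * t ≠ 1)
    (hcent : ∀ g : G, g • x₀ = x₀ → g * t = t * g → g = 1 ∨ fixedBy X g = {x₀})
    (hn : ∃ g : G, g • x₀ ≠ x₀) :
    (∀ (g : G) (x : X), fixedBy X g = {x} → ∃ k : G, k • x₀ = x) ∧
    ((∀ k₀ k₁ k₂ : G, k₁ • x₀ ≠ k₀ • x₀ → k₂ • x₀ ≠ k₀ • x₀ →
        ∃ g : G, g • (k₁ • x₀) = k₂ • x₀ ∧ (g = 1 ∨ fixedBy X g = {k₀ • x₀})) ∨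
     ((∀ g : G, fixedBy X g = {x₀} → g ^ 3 = 1) ∧ ∀ g : G, g ^ 6 = 1 ∨ g ^ 5 = 1)) := by
  classical
  obtain ⟨g₁, hg₁⟩ := hn
  have hne1 : ∀ (g : G) (x : X), fixedBy X g = {x} → g ≠ 1 := by
    rintro g x h rfl
    have a : x₀ = x := eq_of_fixedBy h (one_smul _ _)
    have b : g₁ • x₀ = x := eq_of_fixedBy h (one_smul _ _)
    exact hg₁ (b.trans a.symm)
  have ht1 : t ≠ 1 := hne1 t x₀ ht
  set r := Nat.card (parab x₀ hmul) with hr
  set N := Fintype.card G with hN
  set n := (orb G x₀).card with hnn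
  set b := sc G x₀ with hb
  have hnb : n * b = N := card_orb_mul_sc x₀
  have hom : om G x₀ + 2 = b + r := by rw [om_add_two_eq, sum_parab hmul]
  have hr3 : 3 ≤ r := three_le_card hmul ht ht1 ht2
  have hbr : b ≤ r * (r - 1) := sc_le hmul ht ht1 hcent
  have hrb : r ∣ b := by
    rw [hb, sc_eq_card]; exact Subgroup.card_dvd_of_le (parab_le_stab hmul)
  have hn2 : 2 ≤ n :=
    Finset.one_lt_card.2 ⟨x₀, self_mem_orb x₀, g₁ • x₀, mem_orb.2 ⟨g₁, rfl⟩, fun h => hg₁ h.symm⟩
  have hrn : r ∣ n - 1 := card_dvd hmul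
  have hN0 : 0 < N := Fintype.card_pos
  have hb0 : 0 < b := by
    rcases Nat.eq_zero_or_pos b with h | h
    · rw [h, mul_zero] at hnb; omega
    · exact h
  obtain ⟨e, he⟩ := hrb
  have he1 : 1 ≤ e := by
    rcases Nat.eq_zero_or_pos e with h | h
    · rw [h, mul_zero] at he; omega
    · exact h
  have he2 : e + 1 ≤ r := by
    rw [he] at hbr
    have := Nat.le_of_mul_le_mul_left hbr (by omega)
    omega
  obtain ⟨k, hk⟩ := hrn
  have hk1 : 1 ≤ k := by
    rcases Nat.eq_zero_or_pos k with h | h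
    · rw [h, mul_zero] at hk; omega
    · exact h
  have hnk : n = 1 + k * r := by rw [mul_comm k r, ← hk]; omega
  set A := n * om G x₀ with hAdef
  have hA : A + 2 * n = N + n * r := by
    have : n * (om G x₀ + 2) = n * (b + r) := by rw [hom]
    rw [mul_add, mul_add, hnb] at this
    rw [hAdef]; omega
  have h3n : 3 * n ≤ n * r := by rw [mul_comm 3 n]; exact Nat.mul_le_mul_left _ hr3
  have hNr : n * r ≤ N := by
    rw [← hnb, he]
    exact Nat.mul_le_mul_left _ (Nat.le_mul_of_pos_right _ he1)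
  -- Step A
  have hcentre : ∀ (g : G) (x : X), fixedBy X g = {x} → x ∈ orb G x₀ := by
    intro g x h
    by_contra hx
    have hd := disjoint_orb hx
    have h1 := sum_om_le hfix (orb G x₀ ∪ orb G x)
    rw [Finset.sum_union hd, sum_orb_om, sum_orb_om] at h1
    have h2 : sc G x ≤ om G x := sc_le_om_of_centre (hne1 g x h) h
    have h3 : (orb G x).card * sc G x = N := card_orb_mul_sc x
    have h4 : N ≤ (orb G x).card * om G x := h3 ▸ Nat.mul_le_mul_left _ h2
    have h1' : A + (orb G x).card * om G x + 2 ≤ 2 * N := h1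
    clear_value A N n r b
    omega
  refine ⟨fun g x h => mem_orb.1 (hcentre g x h), ?_⟩
  -- Step B
  have hB : ∃ g₂ : G, g₂ ≠ 1 ∧ ∃ y : X, g₂ • y = y ∧ y ∉ orb G x₀ := by
    by_contra hcon
    push Not at hcon
    have h1 := sum_om_eq hfix (orb G x₀) (fun g hg y hy => hcon g hg y hy)
    rw [sum_orb_om] at h1
    have h1' : A + 2 = 2 * N := h1
    clear_value A N n r b
    omega
  obtain ⟨g₂, hg₂, y, hy, hyo⟩ := hB
  have key : ∀ (g : G) (z : X), g ≠ 1 → g • z = z → z ∉ orb G x₀ →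
      (orb G z).card * om G z + (orb G z).card = N ∧ 2 * (orb G z).card ≤ N := by
    intro g z hg hz hzo
    have hnc : ∀ g : G, g ≠ 1 → fixedBy X g ≠ {z} := fun g _ h => hzo (hcentre g z h)
    have h1 : om G z + 1 = sc G z := om_add_one_eq hnc
    have h2 : 2 ≤ sc G z := two_le_sc hg hz
    have h3 : (orb G z).card * sc G z = N := card_orb_mul_sc z
    constructor
    · rw [← h3, ← h1]; ring
    · rw [← h3, mul_comm 2]; exact Nat.mul_le_mul_left _ h2
  obtain ⟨hy1, hy2⟩ := key g₂ y hg₂ hy hyo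
  have hall : ∀ g : G, g ≠ 1 → fixedBy X g ⊆ ((orb G x₀ ∪ orb G y : Finset X) : Set X) := by
    intro g hg z hz
    by_contra hzu
    rw [Finset.mem_coe, Finset.mem_union, not_or] at hzu
    obtain ⟨hz1, hz2⟩ := key g z hg hz hzu.1
    have hd : Disjoint (orb G x₀ ∪ orb G y) (orb G z) :=
      Finset.disjoint_union_left.2 ⟨disjoint_orb hzu.1, disjoint_orb hzu.2⟩
    have h1 := sum_om_le hfix ((orb G x₀ ∪ orb G y) ∪ orb G z)
    rw [Finset.sum_union hd, Finset.sum_union (disjoint_orb hyo), sum_orb_om, sum_orb_om,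
      sum_orb_om] at h1
    have h1' : A + (orb G y).card * om G y + (orb G z).card * om G z + 2 ≤ 2 * N := h1
    clear_value A N n r b
    omega
  have heq := sum_om_eq hfix (orb G x₀ ∪ orb G y) hall
  rw [Finset.sum_union (disjoint_orb hyo), sum_orb_om, sum_orb_om] at heq
  set m := (orb G y).card with hm
  have heq' : A + m * om G y + 2 = 2 * N := heq
  have hm2 : m + 2 * n = n * r + 2 := by
    clear_value A N n r b m
    omega
  have hmN : m * sc G y = N := card_orb_mul_sc y
  have hdvd : m ∣ n * (r * e) := by rw [← he, hnb]; exact Dvd.intro _ hmN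
  rcases arith r e k n m hr3 he2 hk1 hnk hm2 hdvd he1 with hk1' | ⟨hr3', hk3, he2'⟩
  · left
    intro k₀ k₁ k₂ h₁ h₂
    have hy₁ : k₀⁻¹ • k₁ • x₀ ≠ x₀ := fun h => h₁ (by
      have := congrArg (k₀ • ·) h; simpa only [smul_inv_smul] using this)
    have hy₂ : k₀⁻¹ • k₂ • x₀ ≠ x₀ := fun h => h₂ (by
      have := congrArg (k₀ • ·) h; simpa only [smul_inv_smul] using this)
    have ho₁ : k₀⁻¹ • k₁ • x₀ ∈ orb G x₀ := mem_orb.2 ⟨k₀⁻¹ * k₁, mul_smul _ _ _⟩
    have ho₂ : k₀⁻¹ • k₂ • x₀ ∈ orb G x₀ := mem_orb.2 ⟨k₀⁻¹ * k₂, mul_smul _ _ _⟩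
    have hsub := orb_parab_subset hmul hy₁ ho₁
    have hc := card_orb_parab hmul hy₁
    have hEq : orb (parab x₀ hmul) (k₀⁻¹ • k₁ • x₀) = (orb G x₀).erase x₀ := by
      apply Finset.eq_of_subset_of_card_le hsub
      rw [hc, Finset.card_erase_of_mem (self_mem_orb x₀), ← hr, ← hnn, hnk, hk1']
      omega
    have hmem : k₀⁻¹ • k₂ • x₀ ∈ orb (parab x₀ hmul) (k₀⁻¹ • k₁ • x₀) := by
      rw [hEq]; exact Finset.mem_erase.2 ⟨hy₂, ho₂⟩
    obtain ⟨⟨g, hg⟩, hgy⟩ := mem_orb.1 hmem
    have hgy' : g • (k₀⁻¹ • k₁ • x₀) = k₀⁻¹ • k₂ • x₀ := hgy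
    refine ⟨k₀ * g * k₀⁻¹, ?_, ?_⟩
    · rw [mul_smul, mul_smul, hgy', smul_inv_smul]
    · rcases hg with rfl | hg
      · left; group
      · right; exact fixedBy_conj hg k₀
  · right
    have hn10 : n = 10 := by rw [hnk, hk3, hr3']
    have hb6 : b = 6 := by rw [he, hr3', he2']
    have hN60 : N = 60 := by rw [← hnb, hn10, hb6]
    have hm12 : m = 12 := by
      rw [hn10, hr3'] at hm2; omega
    have hs5 : sc G y = 5 := by
      rw [hm12, hN60] at hmN; omega
    constructor
    · intro g hg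
      have hmem : g ∈ parab x₀ hmul := Or.inr hg
      have := Subgroup.orderOf_dvd_natCard _ hmem
      rw [← hr, hr3'] at this
      exact orderOf_dvd_iff_pow_eq_one.1 this
    · intro g
      by_cases hg : g = 1
      · left; rw [hg, one_pow]
      · have hne : (fixedBy X g).Nonempty := by
          rw [← Set.ncard_pos (Set.finite_of_ncard_ne_zero (by rcases hfix g hg with h | h <;> omega))]
          rcases hfix g hg with h | h <;> omega
        obtain ⟨z, hz⟩ := hne
        have hzu := hall g hg hz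
        rw [Finset.mem_coe, Finset.mem_union] at hzu
        rcases hzu with h | h
        · left
          have := pow_sc_eq_one (G := G) (g := g) (z := z) hz
          rwa [sc_of_mem_orb h, ← hb, hb6] at this
        · right
          have := pow_sc_eq_one (G := G) (g := g) (z := z) hz
          rwa [sc_of_mem_orb h, hs5] at this

end Cfsg.Agent.Lib.Helper11.Klein
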