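import Cfsg.Agent.Lib.Helper11.DicksonFix
import Cfsg.Agent.Lib.Helper11.KleinCount2

set_option autoImplicit false
set_option linter.unusedSectionVars false

namespace Cfsg.Agent.Lib.Helper11.Dickson

open Matrix OnePoint

variable {L : Type*} [Field L]

theorem uMat_mul (a b : L) : uMat a * uMat b = uMat (a + b) := by
  ext i j
  fin_cases i <;> fin_cases j <;>
    simp [Matrix.SpecialLinearGroup.coe_mul, coe_uMat, Matrix.mul_apply, Fin.sum_univ_two, add_comm]

theorem lMat_mul (a b : L) : lMat a * lMat b = lMat (a + b) := by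
  ext i j
  fin_cases i <;> fin_cases j <;>
    simp [Matrix.SpecialLinearGroup.coe_mul, coe_lMat, Matrix.mul_apply, Fin.sum_univ_two, add_comm]

theorem uMat_zero : uMat (0 : L) = 1 := by
  ext i j
  fin_cases i <;> fin_cases j <;> simp [coe_uMat]

theorem lMat_zero : lMat (0 : L) = 1 := by
  ext i j
  fin_cases i <;> fin_cases j <;> simp [coe_lMat]

theorem uMat_pow (a : L) (n : ℕ) : uMat a ^ n = uMat (n * a) := by
  induction n with
  | zero => simp [uMat_zero]
  | succ n ih => rw [pow_succ, ih, uMat_mul]; congr 1; push_cast; ring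

theorem lMat_pow (a : L) (n : ℕ) : lMat a ^ n = lMat (n * a) := by
  induction n with
  | zero => simp [lMat_zero]
  | succ n ih => rw [pow_succ, ih, lMat_mul]; congr 1; push_cast; ring

theorem uMat_apply (a : L) : (uMat a) 0 0 = 1 ∧ (uMat a) 0 1 = a ∧ (uMat a) 1 0 = 0 ∧ (uMat a) 1 1 = 1 := by
  refine ⟨?_, ?_, ?_, ?_⟩ <;> simp [coe_uMat]

theorem lMat_apply (a : L) : (lMat a) 0 0 = 1 ∧ (lMat a) 0 1 = 0 ∧ (lMat a) 1 0 = a ∧ (lMat a) 1 1 = 1 := by
  refine ⟨?_, ?_, ?_, ?_⟩ <;> simp [coe_lMat]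

theorem mul_apply' (g h : Matrix.SpecialLinearGroup (Fin 2) L) (i j : Fin 2) :
    (g * h) i j = g i 0 * h 0 j + g i 1 * h 1 j := by
  rw [Matrix.SpecialLinearGroup.coe_mul, Matrix.mul_apply, Fin.sum_univ_two]

theorem apply01_of_rho_eq_one [DecidableEq L] (g : Matrix.SpecialLinearGroup (Fin 2) L)
    (h : rho g = 1) : g 0 1 = 0 := by
  rcases eq_of_rho_eq_one g h with h | h <;> rw [h] <;> simp

theorem main_pair [DecidableEq L] [IsAlgClosed L] (h2 : (2 : L) ≠ 0)
    (H : Subgroup (Matrix.SpecialLinearGroup (Fin 2) L)) [Finite H]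
    (hu : uMat 1 ∈ H) (τ : L) (hτ : τ ≠ 0) (hl : lMat τ ∈ H) :
    (∃ h ∈ H, h 0 1 = 0 ∧ h 0 0 = h 1 1 ∧ h 0 0 = h 1 0) ∨
    ((3 : L) = 0 ∧ ∀ h ∈ H, (h ^ 6) 0 1 = 0 ∨ (h ^ 5) 0 1 = 0) := by
  have hfin : Finite ↥(H.map rho) := by
    have : (H.map rho : Set (Equiv.Perm (OnePoint L))).Finite := by
      rw [Subgroup.coe_map]
      exact (Set.toFinite (H : Set (Matrix.SpecialLinearGroup (Fin 2) L))).image _
    exact this.to_subtype
  letI : Fintype ↥(H.map rho) := Fintype.ofFinite _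
  have hfb : ∀ (σ : ↥(H.map rho)) (h : Matrix.SpecialLinearGroup (Fin 2) L),
      (σ : Equiv.Perm (OnePoint L)) = rho h → MulAction.fixedBy (OnePoint L) σ = Fix h := by
    intro σ h hσ
    ext x
    simp only [MulAction.mem_fixedBy, mem_Fix, Subgroup.smul_def, Equiv.Perm.smul_def, hσ]
  have hsm : ∀ (σ : ↥(H.map rho)) (x : OnePoint L), σ • x = (σ : Equiv.Perm (OnePoint L)) x :=
    fun σ x => rfl
  have hex : ∀ σ : ↥(H.map rho), ∃ h ∈ H, (σ : Equiv.Perm (OnePoint L)) = rho h := by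
    intro σ
    obtain ⟨h, hh, hσ⟩ := Subgroup.mem_map.1 σ.2
    exact ⟨h, hh, hσ.symm⟩
  have hfix : ∀ σ : ↥(H.map rho), σ ≠ 1 → (MulAction.fixedBy (OnePoint L) σ).ncard = 1 ∨
      (MulAction.fixedBy (OnePoint L) σ).ncard = 2 := by
    intro σ hσ1
    obtain ⟨h, hh, hσ⟩ := hex σ
    rw [hfb σ h hσ]
    apply ncard_Fix h2
    intro h1
    apply hσ1
    ext1
    rw [hσ, h1]; rfl
  have hupper : ∀ (σ : ↥(H.map rho)) (h : Matrix.SpecialLinearGroup (Fin 2) L),
      (σ : Equiv.Perm (OnePoint L)) = rho h → h 1 0 = 0 → h 0 0 = h 1 1 →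
      σ = 1 ∨ MulAction.fixedBy (OnePoint L) σ = {∞} := by
    intro σ h hσ h10 hd
    rcases upper_case h h10 hd with h1 | h1
    · left; ext1; rw [hσ, h1]; rfl
    · right; rw [hfb σ h hσ, h1]
  have hmul : ∀ σ σ' : ↥(H.map rho), MulAction.fixedBy (OnePoint L) σ = {∞} →
      MulAction.fixedBy (OnePoint L) σ' = {∞} →
      σ * σ' = 1 ∨ MulAction.fixedBy (OnePoint L) (σ * σ') = {∞} := by
    intro σ σ' h1 h1'
    obtain ⟨h, hh, hσ⟩ := hex σ
    obtain ⟨h', hh', hσ'⟩ := hex σ'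
    rw [hfb σ h hσ] at h1
    rw [hfb σ' h' hσ'] at h1'
    obtain ⟨a1, a2⟩ := of_Fix_eq_infty h h1
    obtain ⟨b1, b2⟩ := of_Fix_eq_infty h' h1'
    apply hupper (σ * σ') (h * h')
    · rw [Subgroup.coe_mul, hσ, hσ', map_mul]
    · rw [mul_apply', a1, b1]; ring
    · rw [mul_apply', mul_apply', a1, b1, a2, b2]; ring
  obtain ⟨u00, u01, u10, u11⟩ := uMat_apply (1 : L)
  obtain ⟨l00, l01, l10, l11⟩ := lMat_apply τ
  set t : ↥(H.map rho) := ⟨rho (uMat 1), Subgroup.mem_map_of_mem _ hu⟩ with ht_def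
  set s : ↥(H.map rho) := ⟨rho (lMat τ), Subgroup.mem_map_of_mem _ hl⟩ with hs_def
  have ht : MulAction.fixedBy (OnePoint L) t = {∞} := by
    rw [hfb t (uMat 1) rfl]
    exact Fix_upper _ u10 (by rw [u00, u11]) (by rw [u01]; exact one_ne_zero)
  have hs : MulAction.fixedBy (OnePoint L) s = {((0 : L) : OnePoint L)} := by
    rw [hfb s (lMat τ) rfl]
    exact Fix_lower _ l01 (by rw [l00, l11]) (by rw [l10]; exact hτ)
  have ht2 : t * t ≠ 1 := by
    intro h
    have h1 : rho (uMat (1 : L) * uMat 1) = 1 := by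
      rw [map_mul]; exact congrArg Subtype.val h
    have := apply01_of_rho_eq_one _ h1
    rw [uMat_mul, (uMat_apply _).2.1] at this
    apply h2
    rw [← this]; norm_num
  have hcent : ∀ σ : ↥(H.map rho), σ • (∞ : OnePoint L) = ∞ → σ * t = t * σ →
      σ = 1 ∨ MulAction.fixedBy (OnePoint L) σ = {∞} := by
    intro σ h1 hc
    obtain ⟨h, hh, hσ⟩ := hex σ
    rw [hsm, hσ, rho_infty_iff] at h1
    apply hupper σ h hσ h1
    have hc' : rho (h * uMat 1) = rho (uMat 1 * h) := by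
      rw [map_mul, map_mul, ← hσ]; exact congrArg Subtype.val hc
    rcases eq_or_eq_neg_of_rho_eq _ _ hc' with h3 | h3
    · have := congrArg (fun g : Matrix.SpecialLinearGroup (Fin 2) L => g 0 1) h3
      simp only [mul_apply', u00, u01, u10, u11] at this
      linear_combination this
    · exfalso
      have := congrArg (fun g : Matrix.SpecialLinearGroup (Fin 2) L => g 0 0) h3
      simp only [mul_apply', u00, u01, u10, u11, Matrix.SpecialLinearGroup.coe_neg, Matrix.neg_apply, h1] at this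
      have h00 : h 0 0 = 0 := by
        have h4 : (2 : L) * h 0 0 = 0 := by linear_combination this
        exact (mul_eq_zero.1 h4).resolve_left h2
      have hdet := det_eq h
      rw [h00, h1] at hdet
      simp at hdet
  have hn : ∃ σ : ↥(H.map rho), σ • (∞ : OnePoint L) ≠ ∞ := by
    refine ⟨s, ?_⟩
    rw [hsm, Ne, rho_infty_iff, l10]
    exact hτ
  obtain ⟨hcen, hcase⟩ := Klein.klein_count hmul hfix ht ht2 hcent hn
  obtain ⟨k₀, hk₀⟩ := hcen s _ hs
  have ht0 : t • ((0 : L) : OnePoint L) = ((1 : L) : OnePoint L) := by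
    rw [hsm]
    show rho (uMat 1) _ = _
    rw [rho_coe, u00, u01, u10, u11]
    simp
  rcases hcase with hc | ⟨hc3, hc65⟩
  · left
    obtain ⟨g, hg1, hg2⟩ := hc k₀ 1 (t * k₀) (by rw [one_smul, hk₀]; exact infty_ne_coe _)
      (by rw [mul_smul, hk₀, ht0, Ne, coe_eq_coe]; exact one_ne_zero)
    rw [one_smul, mul_smul, hk₀, ht0] at hg1
    rcases hg2 with rfl | hg2
    · rw [one_smul] at hg1; exact absurd hg1 (infty_ne_coe _)
    · obtain ⟨h, hh, hσ⟩ := hex g
      rw [hk₀, hfb g h hσ] at hg2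
      obtain ⟨c1, c2, c3⟩ := of_Fix_eq_zero h hg2
      refine ⟨h, hh, c1, c2, ?_⟩
      rw [hsm, hσ, rho_infty, if_neg c3, coe_eq_coe, div_eq_one_iff_eq c3] at hg1
      exact hg1
  · right
    constructor
    · have h1 := hc3 t ht
      have h3 : rho (uMat (1 : L) ^ 3) = 1 := by
        rw [map_pow]; exact congrArg Subtype.val h1
      have := apply01_of_rho_eq_one _ h3
      rw [uMat_pow, (uMat_apply _).2.1] at this
      rw [← this]; norm_num
    · intro h hh
      rcases hc65 ⟨rho h, Subgroup.mem_map_of_mem _ hh⟩ with h6 | h5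
      · left
        apply apply01_of_rho_eq_one
        rw [map_pow]; exact congrArg Subtype.val h6
      · right
        apply apply01_of_rho_eq_one
        rw [map_pow]; exact congrArg Subtype.val h5

end Cfsg.Agent.Lib.Helper11.Dickson
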