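import Mathlib

set_option autoImplicit false
set_option linter.unusedSectionVars false

namespace Cfsg.Agent.Lib.Helper11.Klein

open MulAction

variable {G : Type*} [Group G] [Fintype G]

open Classical in
/-- weight of a group element: `2 / (number of fixed points)`. -/
noncomputable def cw (X : Type*) [MulAction G X] (g : G) : ℕ :=
  if g = 1 then 0 else if (fixedBy X g).ncard = 1 then 2 else 1

variable {X : Type*} [MulAction G X]

open Classical in
/-- weight of a point. -/
noncomputable def om (G : Type*) [Group G] [Fintype G] {X : Type*} [MulAction G X] (y : X) : ℕ :=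
  ∑ g : G, if g • y = y then cw X g else 0

open Classical in
/-- number of elements fixing a point -/
noncomputable def sc (G : Type*) [Group G] [Fintype G] {X : Type*} [MulAction G X] (y : X) : ℕ :=
  ∑ g : G, if g • y = y then 1 else 0

open Classical in
/-- orbit as a finset -/
noncomputable def orb (G : Type*) [Group G] [Fintype G] {X : Type*} [MulAction G X] (y : X) :
    Finset X := Finset.univ.image (fun g : G => g • y)

open Classical in
theorem term_le (hfix : ∀ g : G, g ≠ 1 → (fixedBy X g).ncard = 1 ∨ (fixedBy X g).ncard = 2)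
    (T : Finset X) (g : G) :
    (∑ y ∈ T, if g • y = y then cw X g else 0) ≤ if g = 1 then 0 else 2 := by
  rw [← Finset.sum_filter, Finset.sum_const, smul_eq_mul]
  by_cases hg : g = 1
  · simp [hg, cw]
  · rw [if_neg hg]
    have hsub : ((T.filter (fun y => g • y = y) : Finset X) : Set X) ⊆ fixedBy X g := by
      intro y hy
      simp only [Finset.coe_filter, Set.mem_ofPred_eq] at hy
      exact hy.2
    have hfin : (fixedBy X g).Finite := by
      apply Set.finite_of_ncard_ne_zero
      rcases hfix g hg with h | h <;> omega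
    have hle := Set.ncard_le_ncard hsub hfin
    rw [Set.ncard_coe_finset] at hle
    rcases hfix g hg with h | h
    · simp only [cw, if_neg hg, h, if_true]; omega
    · simp only [cw, if_neg hg, h]; norm_num; omega

open Classical in
theorem term_eq (hfix : ∀ g : G, g ≠ 1 → (fixedBy X g).ncard = 1 ∨ (fixedBy X g).ncard = 2)
    (T : Finset X) (g : G) (hT : g ≠ 1 → fixedBy X g ⊆ T) :
    (∑ y ∈ T, if g • y = y then cw X g else 0) = if g = 1 then 0 else 2 := by
  rw [← Finset.sum_filter, Finset.sum_const, smul_eq_mul]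
  by_cases hg : g = 1
  · simp [hg, cw]
  · rw [if_neg hg]
    have hsub : ((T.filter (fun y => g • y = y) : Finset X) : Set X) = fixedBy X g := by
      ext y
      simp only [Finset.coe_filter, Set.mem_ofPred_eq]
      exact ⟨fun h => h.2, fun h => ⟨hT hg h, h⟩⟩
    have hle : (T.filter (fun y => g • y = y)).card = (fixedBy X g).ncard := by
      rw [← hsub, Set.ncard_coe_finset]
    rcases hfix g hg with h | h
    · simp only [cw, if_neg hg, h, if_true]; omega
    · simp only [cw, if_neg hg, h]; norm_num; omega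

open Classical in
theorem sum_bound : (∑ g : G, if g = 1 then 0 else 2) + 2 = 2 * Fintype.card G := by
  have h1 : (∑ g : G, if g = 1 then 2 else 0) = 2 := by simp
  have h2 : (∑ g : G, ((if g = 1 then 0 else 2) + (if g = 1 then 2 else 0))) = ∑ g : G, 2 := by
    apply Finset.sum_congr rfl
    intro g _
    by_cases hg : g = 1 <;> simp [hg]
  rw [Finset.sum_add_distrib, h1] at h2
  rw [h2]; simp [mul_comm]

theorem sum_om_le (hfix : ∀ g : G, g ≠ 1 → (fixedBy X g).ncard = 1 ∨ (fixedBy X g).ncard = 2)
    (T : Finset X) : (∑ y ∈ T, om G y) + 2 ≤ 2 * Fintype.card G := by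
  classical
  rw [← sum_bound (G := G)]
  apply Nat.add_le_add_right
  unfold om
  rw [Finset.sum_comm]
  exact Finset.sum_le_sum (fun g _ => term_le hfix T g)

theorem sum_om_eq (hfix : ∀ g : G, g ≠ 1 → (fixedBy X g).ncard = 1 ∨ (fixedBy X g).ncard = 2)
    (T : Finset X) (hT : ∀ g : G, g ≠ 1 → fixedBy X g ⊆ T) :
    (∑ y ∈ T, om G y) + 2 = 2 * Fintype.card G := by
  classical
  rw [← sum_bound (G := G)]
  congr 1
  unfold om
  rw [Finset.sum_comm]
  exact Finset.sum_congr rfl (fun g _ => term_eq hfix T g (hT g))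

theorem cw_conj (h g : G) : cw X (h * g * h⁻¹) = cw X g := by
  classical
  unfold cw
  have h1 : h * g * h⁻¹ = 1 ↔ g = 1 := by
    constructor
    · intro hh
      have : g = h⁻¹ * (h * g * h⁻¹) * h := by group
      rw [this, hh]; group
    · rintro rfl; group
  have h2 : (fixedBy X (h * g * h⁻¹)).ncard = (fixedBy X g).ncard := by
    rw [← smul_fixedBy, Set.ncard_smul_set]
  simp only [h1, h2]

theorem smul_conj_iff (h g : G) (y : X) : (h * g * h⁻¹) • (h • y) = h • y ↔ g • y = y := by
  rw [← mul_smul, inv_mul_cancel_right, mul_smul]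
  exact smul_left_cancel_iff h

theorem om_smul (h : G) (y : X) : om G (h • y) = om G y := by
  classical
  unfold om
  symm
  apply Fintype.sum_equiv (MulAut.conj h).toEquiv
  intro g
  simp only [MulEquiv.toEquiv_eq_coe, EquivLike.coe_coe, MulAut.conj_apply, cw_conj, smul_conj_iff]

theorem sc_smul (h : G) (y : X) : sc G (h • y) = sc G y := by
  classical
  unfold sc
  symm
  apply Fintype.sum_equiv (MulAut.conj h).toEquiv
  intro g
  simp only [MulEquiv.toEquiv_eq_coe, EquivLike.coe_coe, MulAut.conj_apply, smul_conj_iff]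

theorem mem_orb {x y : X} : y ∈ orb G x ↔ ∃ g : G, g • x = y := by
  classical
  simp [orb]

theorem self_mem_orb (x : X) : x ∈ orb G x := mem_orb.2 ⟨1, one_smul _ _⟩

theorem sum_orb_om (x : X) : ∑ y ∈ orb G x, om G y = (orb G x).card * om G x := by
  apply Finset.sum_const_nat
  intro y hy
  obtain ⟨g, rfl⟩ := mem_orb.1 hy
  exact om_smul g x

theorem sc_eq_card (x : X) : sc G x = Nat.card (stabilizer G x) := by
  classical
  unfold sc
  rw [Finset.sum_boole, Nat.card_eq_fintype_card, Fintype.card_subtype]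
  simp [mem_stabilizer_iff]

theorem orb_card (x : X) : (orb G x).card = Nat.card (orbit G x) := by
  classical
  rw [Nat.card_coe_set_eq, ← Set.ncard_coe_finset]
  congr 1
  ext y
  simp [orb, orbit]

theorem card_orb_mul_sc (x : X) : (orb G x).card * sc G x = Fintype.card G := by
  classical
  rw [sc_eq_card, orb_card, ← Nat.card_eq_fintype_card (α := G)]
  have e := orbitProdStabilizerEquivGroup G x
  rw [← Nat.card_congr e, Nat.card_prod]

theorem disjoint_orb {x y : X} (h : y ∉ orb G x) : Disjoint (orb G x) (orb G y) := by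
  classical
  rw [Finset.disjoint_left]
  intro z hz hz'
  obtain ⟨g, rfl⟩ := mem_orb.1 hz
  obtain ⟨g', hg'⟩ := mem_orb.1 hz'
  apply h
  refine mem_orb.2 ⟨g'⁻¹ * g, ?_⟩
  rw [mul_smul, ← hg', inv_smul_smul]

theorem orb_eq_of_mem {x y : X} (h : y ∈ orb G x) : orb G y = orb G x := by
  classical
  obtain ⟨g, rfl⟩ := mem_orb.1 h
  ext z
  rw [mem_orb, mem_orb]
  constructor
  · rintro ⟨k, rfl⟩; exact ⟨k * g, mul_smul _ _ _⟩
  · rintro ⟨k, rfl⟩; exact ⟨k * g⁻¹, by rw [mul_smul, inv_smul_smul]⟩

theorem cw_pos {g : G} (hg : g ≠ 1) : 1 ≤ cw X g := by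
  classical
  unfold cw
  rw [if_neg hg]
  split_ifs <;> omega

theorem cw_eq_two {g : G} (hg : g ≠ 1) (h : (fixedBy X g).ncard = 1) : cw X g = 2 := by
  classical
  unfold cw
  rw [if_neg hg, if_pos h]

theorem cw_eq_one {g : G} (hg : g ≠ 1) (h : (fixedBy X g).ncard ≠ 1) : cw X g = 1 := by
  classical
  unfold cw
  rw [if_neg hg, if_neg h]

theorem cw_one : cw X (1 : G) = 0 := by
  classical
  unfold cw
  rw [if_pos rfl]

theorem fixedBy_eq_of_ncard {g : G} {y : X} (h : (fixedBy X g).ncard = 1) (hy : g • y = y) :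
    fixedBy X g = {y} := by
  obtain ⟨a, ha⟩ := Set.ncard_eq_one.1 h
  have : y ∈ fixedBy X g := hy
  rw [ha] at this
  rw [ha, Set.mem_singleton_iff.1 this]

theorem sc_le_om_add_one (y : X) : sc G y ≤ om G y + 1 := by
  classical
  have h1 : (∑ g : G, if g = 1 then 1 else 0) = 1 := by simp
  unfold sc om
  rw [← h1, ← Finset.sum_add_distrib]
  apply Finset.sum_le_sum
  intro g _
  by_cases hg : g = 1
  · subst hg; simp
  · have := cw_pos (X := X) hg
    simp only [if_neg hg]
    split_ifs <;> omega

theorem sc_le_om_of_centre {g₀ : G} (hg₀ : g₀ ≠ 1) {y : X} (h : fixedBy X g₀ = {y}) :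
    sc G y ≤ om G y := by
  classical
  have h1 : (∑ g : G, if g = 1 then 1 else 0) = 1 := by simp
  have h2 : (∑ g : G, if g = g₀ then 1 else 0) = 1 := by simp
  suffices hh : sc G y + (∑ g : G, if g = g₀ then 1 else 0) ≤
      om G y + (∑ g : G, if g = 1 then 1 else 0) by
    rw [h1, h2] at hh; omega
  unfold sc om
  rw [← Finset.sum_add_distrib, ← Finset.sum_add_distrib]
  apply Finset.sum_le_sum
  intro g _
  by_cases hg : g = 1
  · subst hg
    have : (1 : G) ≠ g₀ := fun h => hg₀ h.symm
    simp [this]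
  · by_cases hgg : g = g₀
    · subst hgg
      have hy : g • y = y := by
        have : y ∈ fixedBy X g := by rw [h]; rfl
        exact this
      have h3 : cw X g = 2 := cw_eq_two hg (by rw [h]; simp)
      simp [hy, h3, hg]
    · have := cw_pos (X := X) hg
      simp only [if_neg hg, if_neg hgg]
      split_ifs <;> omega

theorem om_add_one_eq {y : X} (h : ∀ g : G, g ≠ 1 → fixedBy X g ≠ {y}) :
    om G y + 1 = sc G y := by
  classical
  have h1 : (∑ g : G, if g = 1 then 1 else 0) = 1 := by simp
  unfold sc om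
  rw [← h1, ← Finset.sum_add_distrib]
  apply Finset.sum_congr rfl
  intro g _
  by_cases hg : g = 1
  · subst hg; simp [cw_one]
  · simp only [if_neg hg]
    by_cases hy : g • y = y
    · have : cw X g = 1 := cw_eq_one hg (fun hc => h g hg (fixedBy_eq_of_ncard hc hy))
      simp [hy, this]
    · simp [hy]

open Classical in
theorem om_add_two_eq {x₀ : X} :
    om G x₀ + 2 = sc G x₀ + ∑ g : G, if (g = 1 ∨ fixedBy X g = {x₀}) then 1 else 0 := by
  have h1 : (∑ g : G, if g = 1 then 2 else 0) = 2 := by simp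
  unfold sc om
  rw [← h1, ← Finset.sum_add_distrib, ← Finset.sum_add_distrib]
  apply Finset.sum_congr rfl
  intro g _
  by_cases hg : g = 1
  · subst hg; simp [cw_one]
  · simp only [if_neg hg, hg, false_or]
    by_cases hy : g • x₀ = x₀
    · by_cases hc : fixedBy X g = {x₀}
      · have : cw X g = 2 := cw_eq_two hg (by rw [hc]; simp)
        simp [hy, this, hc]
      · have : cw X g = 1 := cw_eq_one hg (fun hcc => hc (fixedBy_eq_of_ncard hcc hy))
        simp [hy, this, hc]
    · have hc : fixedBy X g ≠ {x₀} := by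
        intro hc
        apply hy
        have : x₀ ∈ fixedBy X g := by rw [hc]; rfl
        exact this
      simp [hy, hc]

theorem arith (r e k n m : ℕ) (hr : 3 ≤ r) (he : e + 1 ≤ r) (hk : 1 ≤ k)
    (hn : n = 1 + k * r) (hm : m + 2 * n = n * r + 2) (hdvd : m ∣ n * (r * e)) (he1 : 1 ≤ e) :
    k = 1 ∨ (r = 3 ∧ k = 3 ∧ e = 2) := by
  obtain ⟨ρ, rfl⟩ : ∃ ρ, r = ρ + 2 := ⟨r - 2, by omega⟩
  have hρ : 1 ≤ ρ := by omega
  set q := 1 + k * ρ with hq
  have hnq : n = q + 2 * k := by rw [hn, hq]; ring
  have hmq : m = (ρ + 2) * q := by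
    have : m + 2 * n = (ρ + 2) * q + 2 * n := by rw [hm, hn, hq]; ring
    omega
  have h1 : q ∣ n * e := by
    rw [hmq] at hdvd
    have : (ρ + 2) * q ∣ (ρ + 2) * (n * e) := by
      have h : n * ((ρ + 2) * e) = (ρ + 2) * (n * e) := by ring
      rwa [h] at hdvd
    exact Nat.dvd_of_mul_dvd_mul_left (by omega) this
  have h2 : q ∣ 2 * k * e := by
    rw [hnq, add_mul] at h1
    exact (Nat.dvd_add_right (Dvd.intro _ rfl)).1 h1
  have hcop : Nat.Coprime q k := by
    rw [hq]
    have : Nat.Coprime (1 + k * ρ) k := by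
      rw [Nat.coprime_add_mul_left_left]
      exact Nat.coprime_one_left k
    exact this
  have h3 : q ∣ 2 * e := by
    have : q ∣ k * (2 * e) := by
      have h : 2 * k * e = k * (2 * e) := by ring
      rwa [h] at h2
    exact hcop.dvd_of_dvd_mul_left this
  have h4 : q ≤ 2 * e := Nat.le_of_dvd (by omega) h3
  have h5 : k * ρ ≤ 2 * ρ + 1 := by omega
  have hk3 : k ≤ 3 := by
    by_contra hcon
    have : 4 * ρ ≤ k * ρ := Nat.mul_le_mul_right _ (by omega)
    omega
  interval_cases k
  · left; rfl
  · exfalso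
    have hodd : Nat.Coprime q 2 := by
      rw [hq]
      have : Nat.Coprime (1 + 2 * ρ) 2 := by
        rw [Nat.coprime_add_mul_left_left]
        exact Nat.coprime_one_left 2
      exact this
    have h6 : q ∣ e := hodd.dvd_of_dvd_mul_left h3
    have := Nat.le_of_dvd (by omega) h6
    omega
  · right
    have hρ1 : ρ = 1 := by omega
    subst hρ1
    refine ⟨rfl, rfl, ?_⟩
    have : q = 4 := by rw [hq]
    rw [this] at h3
    omega

end Cfsg.Agent.Lib.Helper11.Klein
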