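import Mathlib
import Cfsg.Agent.Lib.Helper51.PGVBase

/-! Timmesfeld replacement in module language (PIECE 1 of helper51's plan for S3086). -/

set_option autoImplicit false

namespace Cfsg.Agent.Lib.Helper11.PGV

open Cfsg.Agent.Lib.Helper51.PGV

universe u v

variable {p : ℕ} [hp : Fact p.Prime]
variable {𝔄 : Type u} [Group 𝔄]
variable {V : Type v} [AddCommGroup V] [Module (ZMod p) V]

/-- elements fixing all `(c - 1) u` -/
def replA (α : 𝔄 →* Module.End (ZMod p) V) (u : V) : Subgroup 𝔄 where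
  carrier := {d | ∀ b, α d (α b u - u) = α b u - u}
  mul_mem' := by
    intro x y hx hy b
    rw [map_mul, Module.End.mul_apply, hy b, hx b]
  one_mem' := by
    intro b
    rw [map_one, Module.End.one_apply]
  inv_mem' := by
    intro x hx b
    conv_lhs => rw [← hx b]
    rw [hom_inv_apply_apply]

/-- elements acting trivially on `[V, 𝔄]` -/
def replD (α : 𝔄 →* Module.End (ZMod p) V) : Subgroup 𝔄 where
  carrier := {d | ∀ b v, α d (α b v - v) = α b v - v}
  mul_mem' := by
    intro x y hx hy b v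
    rw [map_mul, Module.End.mul_apply, hy b v, hx b v]
  one_mem' := by
    intro b v
    rw [map_one, Module.End.one_apply]
  inv_mem' := by
    intro x hx b v
    conv_lhs => rw [← hx b v]
    rw [hom_inv_apply_apply]

theorem mem_replD {α : 𝔄 →* Module.End (ZMod p) V} {d : 𝔄} :
    d ∈ replD α ↔ ∀ b v, α d (α b v - v) = α b v - v := Iff.rfl

theorem mem_replA {α : 𝔄 →* Module.End (ZMod p) V} {u : V} {d : 𝔄} :
    d ∈ replA α u ↔ ∀ b, α d (α b u - u) = α b u - u := Iff.rfl

/-- the commutator space `[V, 𝔄]` -/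
def commW (α : 𝔄 →* Module.End (ZMod p) V) : Submodule (ZMod p) V :=
  Submodule.span (ZMod p) {w | ∃ b v, w = α b v - v}

theorem sub_mem_commW (α : 𝔄 →* Module.End (ZMod p) V) (b : 𝔄) (v : V) :
    α b v - v ∈ commW α := Submodule.subset_span ⟨b, v, rfl⟩

theorem commW_le_fixS_replD (α : 𝔄 →* Module.End (ZMod p) V) :
    commW α ≤ fixS α (replD α) := by
  rw [commW, Submodule.span_le]
  rintro _ ⟨b, v, rfl⟩ d hd
  exact hd b v

theorem commW_inv (α : 𝔄 →* Module.End (ZMod p) V) (a : 𝔄) : ∀ w ∈ commW α, α a w ∈ commW α := by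
  intro w hw
  induction hw using Submodule.span_induction with
  | mem x hx =>
    obtain ⟨b, v, rfl⟩ := hx
    have : α a (α b v - v) = (α (a * b) v - v) - (α a v - v) := by
      rw [map_mul, Module.End.mul_apply, map_sub]; abel
    rw [this]
    exact Submodule.sub_mem _ (sub_mem_commW α _ _) (sub_mem_commW α _ _)
  | zero => rw [map_zero]; exact Submodule.zero_mem _
  | add x y _ _ hx hy => rw [map_add]; exact Submodule.add_mem _ hx hy
  | smul c x _ hx => rw [map_smul]; exact Submodule.smul_mem _ c hx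

theorem fixS_sup (α : 𝔄 →* Module.End (ZMod p) V) (B C : Subgroup 𝔄) :
    fixS α (B ⊔ C) = fixS α B ⊓ fixS α C := by
  apply le_antisymm
  · exact le_inf (fixS_anti le_sup_left) (fixS_anti le_sup_right)
  · rintro v ⟨h1, h2⟩
    let S : Subgroup 𝔄 :=
      { carrier := {b | α b v = v}
        mul_mem' := by
          intro x y hx hy
          change α (x * y) v = v
          rw [map_mul, Module.End.mul_apply, hy, hx]
        one_mem' := by
          change α 1 v = v
          rw [map_one, Module.End.one_apply]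
        inv_mem' := by
          intro x hx
          change α x⁻¹ v = v
          conv_lhs => rw [← (show α x v = v from hx)]
          rw [hom_inv_apply_apply] }
    have : B ⊔ C ≤ S := sup_le (fun b hb => h1 b hb) (fun b hb => h2 b hb)
    intro b hb
    exact this hb

theorem card_le_mul_of_fiber {S T : Type*} [Finite S] [Finite T] (f : S → T) (k : ℕ)
    (h : ∀ s0 : S, Nat.card {s // f s = f s0} ≤ k) : Nat.card S ≤ k * Nat.card T := by
  classical
  have := Fintype.ofFinite S
  have := Fintype.ofFinite T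
  rw [Nat.card_eq_fintype_card, Nat.card_eq_fintype_card]
  calc Fintype.card S = (Finset.univ : Finset S).card := rfl
    _ ≤ k * ((Finset.univ : Finset S).image f).card := Finset.card_le_mul_card_image _ k (by
        intro a ha
        obtain ⟨s0, -, rfl⟩ := Finset.mem_image.mp ha
        have := h s0
        rw [Nat.card_eq_fintype_card, Fintype.card_subtype] at this
        exact this)
    _ ≤ k * Fintype.card T := Nat.mul_le_mul_left _ (Finset.card_le_univ _)

section main

variable [Finite 𝔄] [Finite V] (α : 𝔄 →* Module.End (ZMod p) V)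

theorem max_pos : 0 < Nat.card 𝔄 * Nat.card (fixS α ⊤) :=
  Nat.mul_pos Nat.card_pos Nat.card_pos

theorem lattice (comm : ∀ x y : 𝔄, x * y = y * x)
    (best : ∀ B : Subgroup 𝔄,
      Nat.card B * Nat.card (fixS α B) ≤ Nat.card 𝔄 * Nat.card (fixS α ⊤))
    (B1 B2 : Subgroup 𝔄)
    (h1 : Nat.card B1 * Nat.card (fixS α B1) = Nat.card 𝔄 * Nat.card (fixS α ⊤))
    (h2 : Nat.card B2 * Nat.card (fixS α B2) = Nat.card 𝔄 * Nat.card (fixS α ⊤)) :
    Nat.card (B1 ⊓ B2 : Subgroup 𝔄) * Nat.card (fixS α (B1 ⊓ B2))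
        = Nat.card 𝔄 * Nat.card (fixS α ⊤) ∧
      fixS α (B1 ⊓ B2) = fixS α B1 ⊔ fixS α B2 := by
  have hm := max_pos α
  set m := Nat.card 𝔄 * Nat.card (fixS α ⊤) with hmdef
  have hab : Nat.card (B1 ⊔ B2 : Subgroup 𝔄) * Nat.card (B1 ⊓ B2 : Subgroup 𝔄)
      = Nat.card B1 * Nat.card B2 := by
    apply Cfsg.Agent.Lib.Helper10.card_sup_mul_card_inf
    intro x _
    rw [Subgroup.mem_normalizer_iff]
    intro h
    rw [comm x h, mul_inv_cancel_right]
  have hxy := card_submodule_sup_mul_inf (fixS α B1) (fixS α B2)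
  have hle : fixS α B1 ⊔ fixS α B2 ≤ fixS α (B1 ⊓ B2) :=
    sup_le (fixS_anti inf_le_left) (fixS_anti inf_le_right)
  have hxz := card_submodule_le hle
  have b1 := best (B1 ⊔ B2)
  rw [fixS_sup] at b1
  have b2 := best (B1 ⊓ B2)
  set a := Nat.card (B1 ⊔ B2 : Subgroup 𝔄)
  set b := Nat.card (B1 ⊓ B2 : Subgroup 𝔄)
  set x := Nat.card (fixS α B1 ⊔ fixS α B2 : Submodule (ZMod p) V)
  set y := Nat.card (fixS α B1 ⊓ fixS α B2 : Submodule (ZMod p) V)
  set z := Nat.card (fixS α (B1 ⊓ B2))
  have hb : 0 < b := Nat.card_pos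
  have e : (a * y) * (b * x) = m * m := by
    calc (a * y) * (b * x) = (a * b) * (x * y) := by ring
      _ = (Nat.card B1 * Nat.card (fixS α B1)) * (Nat.card B2 * Nat.card (fixS α B2)) := by
          rw [hab, hxy]; ring
      _ = m * m := by rw [h1, h2]
  have h3 : m ≤ b * x := by
    apply Nat.le_of_mul_le_mul_left _ hm
    calc m * m = (a * y) * (b * x) := e.symm
      _ ≤ m * (b * x) := Nat.mul_le_mul_right _ b1
  have h4 : b * x ≤ b * z := Nat.mul_le_mul_left _ hxz
  have h5 : b * z = m := le_antisymm b2 (h3.trans h4)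
  refine ⟨h5, (submodule_eq_of_le_of_card_le hle ?_).symm⟩
  apply Nat.le_of_mul_le_mul_left _ hb
  calc b * z = m := h5
    _ ≤ b * x := h3

theorem replA_max (comm : ∀ x y : 𝔄, x * y = y * x)
    (best : ∀ B : Subgroup 𝔄,
      Nat.card B * Nat.card (fixS α B) ≤ Nat.card 𝔄 * Nat.card (fixS α ⊤)) (u : V) :
    Nat.card (replA α u) * Nat.card (fixS α (replA α u)) = Nat.card 𝔄 * Nat.card (fixS α ⊤) ∧
      fixS α (replA α u) ≤ commW α ⊔ fixS α ⊤ := by
  set X : Submodule (ZMod p) V := (commW α ⊔ fixS α ⊤) ⊓ fixS α (replA α u) with hX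
  have hfmem : ∀ (b : 𝔄) (c : fixS α ⊤), α b u - u + (c : V) ∈ X := by
    intro b c
    refine ⟨Submodule.add_mem_sup (sub_mem_commW α b u) c.2, ?_⟩
    intro d hd
    rw [map_add, hd b, c.2 d (Subgroup.mem_top d)]
  let f : 𝔄 × fixS α ⊤ → X := fun s => ⟨α s.1 u - u + (s.2 : V), hfmem s.1 s.2⟩
  have hcount : Nat.card (𝔄 × fixS α ⊤) ≤ Nat.card (replA α u) * Nat.card X := by
    apply card_le_mul_of_fiber f
    rintro ⟨b0, c0⟩
    have key : ∀ s : {s // f s = f (b0, c0)}, b0⁻¹ * s.1.1 ∈ replA α u := by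
      rintro ⟨⟨b, c⟩, hs⟩
      have hs' : α b u - u + (c : V) = α b0 u - u + (c0 : V) := congrArg Subtype.val hs
      have hbu : α b u = α b0 u + ((c0 : V) - c) := by
        have : α b u = (α b u - u + (c : V)) + u - c := by abel
        rw [this, hs']; abel
      have hz : ∀ d : 𝔄, α d ((c0 : V) - c) = (c0 : V) - c := by
        intro d
        rw [map_sub, c0.2 d (Subgroup.mem_top d), c.2 d (Subgroup.mem_top d)]
      have heu : α (b0⁻¹ * b) u = u + ((c0 : V) - c) := by
        rw [map_mul, Module.End.mul_apply, hbu, map_add, hom_inv_apply_apply, hz]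
      intro x
      change α (b0⁻¹ * b) (α x u - u) = α x u - u
      have hsw : α (b0⁻¹ * b) (α x u) = α x (α (b0⁻¹ * b) u) := by
        rw [← Module.End.mul_apply, ← map_mul, comm, map_mul, Module.End.mul_apply]
      rw [map_sub, hsw, heu, map_add, hz]
      abel
    apply Nat.card_le_card_of_injective
      (fun s : {s // f s = f (b0, c0)} => (⟨b0⁻¹ * s.1.1, key s⟩ : replA α u))
    rintro ⟨⟨b, c⟩, hs⟩ ⟨⟨b', c'⟩, hs'⟩ h
    have hb : b = b' := by
      have := congrArg Subtype.val h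
      exact mul_left_cancel this
    subst hb
    have e1 : α b u - u + (c : V) = α b0 u - u + (c0 : V) := congrArg Subtype.val hs
    have e2 : α b u - u + (c' : V) = α b0 u - u + (c0 : V) := congrArg Subtype.val hs'
    have hc : c = c' := by
      apply Subtype.ext
      exact add_left_cancel (e1.trans e2.symm)
    subst hc
    rfl
  rw [Nat.card_prod] at hcount
  have hXle : X ≤ fixS α (replA α u) := inf_le_right
  have h1 := card_submodule_le hXle
  have h2 := best (replA α u)
  have hpos : 0 < Nat.card (replA α u) := Nat.card_pos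
  have h3 : Nat.card (replA α u) * Nat.card X
      ≤ Nat.card (replA α u) * Nat.card (fixS α (replA α u)) := Nat.mul_le_mul_left _ h1
  refine ⟨le_antisymm h2 (hcount.trans h3), ?_⟩
  have h4 : X = fixS α (replA α u) := by
    apply submodule_eq_of_le_of_card_le hXle
    apply Nat.le_of_mul_le_mul_left _ hpos
    exact h2.trans hcount
  rw [← h4]
  exact inf_le_left

theorem commW_eq_bot (hP : IsPGroup p 𝔄) (h : commW α ⊔ fixS α ⊤ = ⊤) : commW α = ⊥ := by
  by_contra hne
  let P : Submodule (ZMod p) V → Prop := fun X => (∀ a, ∀ x ∈ X, α a x ∈ X) ∧ ¬ commW α ≤ X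
  have hbot : P ⊥ := by
    refine ⟨?_, fun hle => hne (le_bot_iff.mp hle)⟩
    intro a x hx
    rw [Submodule.mem_bot] at hx ⊢
    rw [hx, map_zero]
  have : Nonempty {X // P X} := ⟨⟨⊥, hbot⟩⟩
  obtain ⟨⟨X, hXinv, hXn⟩, hmax⟩ := Finite.exists_max (fun X : {X // P X} => Nat.card X.1)
  obtain ⟨y, hyW, hyX, hy⟩ := exists_fixed_rel hP α X (commW α) hXinv (commW_inv α) hXn
  set X' : Submodule (ZMod p) V := X ⊔ Submodule.span (ZMod p) {y} with hX'
  have hdec : ∀ w ∈ X', ∀ b, α b w - w ∈ X := by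
    intro w hw b
    obtain ⟨x, hx, t, ht, rfl⟩ := Submodule.mem_sup.mp hw
    obtain ⟨k, rfl⟩ := Submodule.mem_span_singleton.mp ht
    have : α b (x + k • y) - (x + k • y) = (α b x - x) + k • (α b y - y) := by
      rw [map_add, map_smul, smul_sub]; abel
    rw [this]
    exact X.add_mem (X.sub_mem (hXinv b x hx) hx) (X.smul_mem k (hy b))
  have hX'inv : ∀ a, ∀ x ∈ X', α a x ∈ X' := by
    intro a x hx
    have : α a x = (α a x - x) + x := by abel
    rw [this]
    exact X'.add_mem (le_sup_left (a := X) (hdec x hx a)) hx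
  have hyX' : y ∈ X' := le_sup_right (a := X) (Submodule.mem_span_singleton_self y)
  have hWX' : commW α ≤ X' := by
    by_contra hn
    have := hmax ⟨X', hX'inv, hn⟩
    have heq : X = X' := submodule_eq_of_le_of_card_le le_sup_left this
    exact hyX (heq ▸ hyX')
  apply hXn
  rw [commW, Submodule.span_le]
  rintro _ ⟨b, v, rfl⟩
  have hv : v ∈ commW α ⊔ fixS α ⊤ := h ▸ Submodule.mem_top
  obtain ⟨w, hw, c, hc, rfl⟩ := Submodule.mem_sup.mp hv
  have : α b (w + c) - (w + c) = α b w - w := by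
    rw [map_add, hc b (Subgroup.mem_top b)]; abel
  rw [SetLike.mem_coe, this]
  exact hdec w (hWX' hw) b

theorem repl_aux (comm : ∀ x y : 𝔄, x * y = y * x)
    (best : ∀ B : Subgroup 𝔄,
      Nat.card B * Nat.card (fixS α B) ≤ Nat.card 𝔄 * Nat.card (fixS α ⊤)) :
    ∃ B : Subgroup 𝔄, B ≤ replD α ∧
      Nat.card B * Nat.card (fixS α B) = Nat.card 𝔄 * Nat.card (fixS α ⊤) ∧
      fixS α B ≤ commW α ⊔ fixS α ⊤ := by
  let P : Subgroup 𝔄 → Prop := fun B =>
    Nat.card B * Nat.card (fixS α B) = Nat.card 𝔄 * Nat.card (fixS α ⊤) ∧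
      fixS α B ≤ commW α ⊔ fixS α ⊤
  have htop : P ⊤ := ⟨by rw [Nat.card_congr Subgroup.topEquiv.toEquiv], le_sup_right⟩
  have : Nonempty {B // P B} := ⟨⟨⊤, htop⟩⟩
  obtain ⟨⟨B, hB1, hB2⟩, hmin⟩ := Finite.exists_min (fun B : {B // P B} => Nat.card B.1)
  refine ⟨B, ?_, hB1, hB2⟩
  intro d hd b v
  obtain ⟨hA1, hA2⟩ := replA_max α comm best v
  obtain ⟨hL1, hL2⟩ := lattice α comm best B (replA α v) hB1 hA1
  have hPinf : P (B ⊓ replA α v) := ⟨hL1, by rw [hL2]; exact sup_le hB2 hA2⟩
  have := hmin ⟨_, hPinf⟩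
  have heq : B ⊓ replA α v = B := Subgroup.eq_of_le_of_card_ge inf_le_left this
  have hd' : d ∈ B ⊓ replA α v := by rw [heq]; exact hd
  exact hd'.2 b

/-- the fixed space of `replD α` is `[V, 𝔄] + C_V(𝔄)` for a best offender -/
theorem fixS_replD (comm : ∀ x y : 𝔄, x * y = y * x)
    (best : ∀ B : Subgroup 𝔄,
      Nat.card B * Nat.card (fixS α B) ≤ Nat.card 𝔄 * Nat.card (fixS α ⊤)) :
    fixS α (replD α) = commW α ⊔ fixS α ⊤ := by
  obtain ⟨B, hBD, -, hB2⟩ := repl_aux α comm best
  exact le_antisymm ((fixS_anti hBD).trans hB2)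
    (sup_le (commW_le_fixS_replD α) (fixS_anti le_top))

/-- **Timmesfeld replacement**, module version. -/
theorem repl (comm : ∀ x y : 𝔄, x * y = y * x) (hP : IsPGroup p 𝔄)
    (best : ∀ B : Subgroup 𝔄,
      Nat.card B * Nat.card (fixS α B) ≤ Nat.card 𝔄 * Nat.card (fixS α ⊤)) :
    Nat.card (replD α) * Nat.card (fixS α (replD α)) = Nat.card 𝔄 * Nat.card (fixS α ⊤) ∧
      ((∀ d ∈ replD α, α d = 1) → ∀ b, α b = 1) := by
  obtain ⟨B, hBD, hB1, hB2⟩ := repl_aux α comm best
  have hfix := fixS_replD α comm best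
  constructor
  · apply le_antisymm (best _)
    rw [← hB1]
    apply Nat.mul_le_mul
    · exact Nat.card_le_card_of_injective (Subgroup.inclusion hBD) (Subgroup.inclusion_injective hBD)
    · apply card_submodule_le
      rw [hfix]
      exact hB2
  · intro htriv
    have htop : fixS α (replD α) = ⊤ := by
      rw [eq_top_iff]
      intro v _ d hd
      rw [htriv d hd, Module.End.one_apply]
    have hW := commW_eq_bot α hP (hfix ▸ htop)
    intro b
    apply LinearMap.ext
    intro v
    have := sub_mem_commW α b v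
    rw [hW, Submodule.mem_bot, sub_eq_zero] at this
    rw [this, Module.End.one_apply]

end main

end Cfsg.Agent.Lib.Helper11.PGV
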